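import Cfsg.Agent.Lib.Helper22.BrauerDeg

set_option autoImplicit false
set_option linter.style.haveILetI false
set_option linter.unusedSectionVars false
set_option maxHeartbeats 1000000
open Cfsg
open scoped ComplexConjugate

namespace Cfsg.Agent.Lib.Helper22

open Cfsg.Agent.Lib.Helper2

universe u
variable {G : Type u} [Group G] [Finite G] {p : ℕ} [Fact p.Prime]

/-- Sylow data for a simple group of order `p * M`, `p ∤ M`, with a self-centralizing Sylow
`p`-subgroup. -/
theorem sylow_data_self_centralizing [IsSimpleGroup G] (M : ℕ) (hG : Nat.card G = p * M)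
    (hpM : ¬ p ∣ M) (hM1 : M ≠ 1) (P : Sylow p G)
    (hC : Subgroup.centralizer ((P : Subgroup G) : Set G) = (P : Subgroup G)) :
    ∃ k m : ℕ, m * k = M ∧ k % p = 1 ∧ m ∣ p - 1 ∧ m ≠ 1 ∧
      (Subgroup.centralizer ((P : Subgroup G) : Set G)).relIndex
        (Subgroup.normalizer ((P : Subgroup G) : Set G)) = m := by
  have hp := (Fact.out : p.Prime)
  obtain ⟨hP, k, m, -, -, -, -, hmp, hm1, hidx⟩ := sylow_data_of_simple M hG hpM hM1 P
  have hidxP : (P : Subgroup G).index = M := by
    have h1 := (P : Subgroup G).card_mul_index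
    rw [hP, hG] at h1
    exact Nat.eq_of_mul_eq_mul_left hp.pos h1
  have hk : Nat.card (Sylow p G) = (Subgroup.normalizer ((P : Subgroup G) : Set G)).index :=
    P.card_eq_index_normalizer
  have hkp : (Subgroup.normalizer ((P : Subgroup G) : Set G)).index % p = 1 := by
    have h1 := card_sylow_modEq_one p G
    rw [hk] at h1
    have h2 : 1 % p = 1 := Nat.mod_eq_of_lt hp.one_lt
    rw [← h2]; exact h1
  refine ⟨(Subgroup.normalizer ((P : Subgroup G) : Set G)).index, m, ?_, hkp, hmp, hm1, hidx⟩
  rw [← hidx, hC, Subgroup.relIndex_mul_index Subgroup.le_normalizer, hidxP]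

end Cfsg.Agent.Lib.Helper22
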