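import Cfsg.Agent.Lib.Helper22.BrauerDeg2

set_option autoImplicit false
set_option linter.style.haveILetI false
set_option linter.unusedSectionVars false
set_option maxHeartbeats 1000000
open Cfsg
open scoped ComplexConjugate

namespace Cfsg.Agent.Lib.Helper22

open Cfsg.Agent.Lib.Helper2

universe u
variable {G : Type u} [Group G]

/-- An element `z` of odd prime order, self-centralizing and inverted by some element. -/
structure InvHyp (p : ℕ) (z : G) : Prop where
  ord : orderOf z = p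
  cent : ∀ x : G, x * z = z * x → x ∈ Subgroup.zpowers z
  inv : ∃ g : G, g * z * g⁻¹ = z⁻¹

theorem InvHyp.conj {p : ℕ} {z : G} (h : InvHyp p z) (c : G) : InvHyp p (c * z * c⁻¹) := by
  refine ⟨?_, ?_, ?_⟩
  · have : c * z * c⁻¹ = MulAut.conj c z := rfl
    rw [this, MulEquiv.orderOf_eq, h.ord]
  · intro x hx
    have h1 : (c⁻¹ * x * c) * z = z * (c⁻¹ * x * c) := by
      have := congrArg (fun t => c⁻¹ * t * c) hx
      calc (c⁻¹ * x * c) * z = c⁻¹ * (x * (c * z * c⁻¹)) * c := by group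
        _ = c⁻¹ * (c * z * c⁻¹ * x) * c := this
        _ = z * (c⁻¹ * x * c) := by group
    obtain ⟨k, hk⟩ := h.cent _ h1
    refine ⟨k, ?_⟩
    have h2 : (c * z * c⁻¹) ^ k = c * z ^ k * c⁻¹ := by
      rw [conj_zpow]
    show (c * z * c⁻¹) ^ k = x
    rw [h2]
    have hk' : z ^ k = c⁻¹ * x * c := hk
    rw [hk']; group
  · obtain ⟨g, hg⟩ := h.inv
    refine ⟨c * g * c⁻¹, ?_⟩
    calc c * g * c⁻¹ * (c * z * c⁻¹) * (c * g * c⁻¹)⁻¹ = c * (g * z * g⁻¹) * c⁻¹ := by group
      _ = (c * z * c⁻¹)⁻¹ := by rw [hg]; group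

/-- Every element inverting `z` is an involution. -/
theorem InvHyp.orderOf_eq_two {p : ℕ} (hp : p.Prime) (hp2 : p ≠ 2) {z : G} (h : InvHyp p z) {g : G}
    (hg : g * z * g⁻¹ = z⁻¹) : orderOf g = 2 := by
  have hz1 : z ≠ 1 := by
    rintro rfl
    have := h.ord
    rw [orderOf_one] at this
    exact hp.one_lt.ne this
  have hodd : Odd p := hp.odd_of_ne_two hp2
  -- `g ^ 2` commutes with `z`
  have h1 : (g * g) * z = z * (g * g) := by
    have h2 : g * z = z⁻¹ * g := by rw [← hg]; group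
    have h3 : g * z⁻¹ = z * g := by
      have : g * z⁻¹ * g⁻¹ = z := by
        have := congrArg (·⁻¹) hg
        simp only [mul_inv_rev, inv_inv] at this
        rw [← mul_assoc] at this
        exact this
      calc g * z⁻¹ = (g * z⁻¹ * g⁻¹) * g := by group
        _ = z * g := by rw [this]
    calc g * g * z = g * (g * z) := by group
      _ = g * (z⁻¹ * g) := by rw [h2]
      _ = (g * z⁻¹) * g := by group
      _ = z * g * g := by rw [h3]
      _ = z * (g * g) := by group
  obtain ⟨k, hk⟩ := h.cent _ h1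
  have hk' : z ^ k = g * g := hk
  -- `g` inverts `g * g`
  have h4 : g * (g * g) * g⁻¹ = (g * g)⁻¹ := by
    rw [← hk', ← conj_zpow, hg, inv_zpow]
  have h5 : (g * g) * (g * g) = 1 := by
    have : g * (g * g) * g⁻¹ = g * g := by group
    rw [this] at h4
    nth_rewrite 1 [h4]
    exact inv_mul_cancel _
  have h6 : g * g = 1 := by
    have h7 : (g * g) ^ 2 = 1 := by rw [pow_two]; exact h5
    have h8 : (g * g) ^ p = 1 := by
      rw [← hk', ← zpow_natCast, ← zpow_mul, mul_comm, zpow_mul, zpow_natCast, ← h.ord,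
        pow_orderOf_eq_one, one_zpow]
    have h9 := orderOf_dvd_of_pow_eq_one h7
    have h10 := orderOf_dvd_of_pow_eq_one h8
    have h11 : orderOf (g * g) ∣ 1 := by
      have hc : Nat.Coprime 2 p := Nat.coprime_two_left.2 hodd
      exact hc ▸ Nat.dvd_gcd h9 h10
    exact orderOf_eq_one_iff.1 (Nat.dvd_one.1 h11)
  have hg1 : g ≠ 1 := by
    rintro rfl
    simp only [one_mul, inv_one, mul_one] at hg
    have h7 : z ^ 2 = 1 := by
      rw [pow_two]
      nth_rewrite 1 [hg]
      exact inv_mul_cancel _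
    have h9 := orderOf_dvd_of_pow_eq_one h7
    rw [h.ord] at h9
    exact hp2 ((Nat.prime_dvd_prime_iff_eq hp Nat.prime_two).1 h9)
  exact orderOf_eq_prime (by rw [pow_two]; exact h6) hg1

/-- The number of elements inverting `z` is `p`. -/
theorem InvHyp.card_inverters {p : ℕ} {z : G} (h : InvHyp p z) :
    Nat.card {g : G // g * z * g⁻¹ = z⁻¹} = p := by
  obtain ⟨g₀, hg₀⟩ := h.inv
  rw [← h.ord, ← Nat.card_zpowers]
  apply Nat.card_congr
  refine
    { toFun := fun g => ⟨g₀⁻¹ * g.1, h.cent _ ?_⟩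
      invFun := fun c => ⟨g₀ * c.1, ?_⟩
      left_inv := fun g => by simp
      right_inv := fun c => by simp }
  · have h1 : g.1 * z = z⁻¹ * g.1 := by
      calc g.1 * z = (g.1 * z * g.1⁻¹) * g.1 := by group
        _ = z⁻¹ * g.1 := by rw [g.2]
    have h2 : g₀⁻¹ * z⁻¹ = z * g₀⁻¹ := by rw [← hg₀]; group
    calc g₀⁻¹ * g.1 * z = g₀⁻¹ * (g.1 * z) := by group
      _ = (g₀⁻¹ * z⁻¹) * g.1 := by rw [h1]; group
      _ = z * (g₀⁻¹ * g.1) := by rw [h2]; group
  · obtain ⟨k, hk⟩ := c.2
    have hk' : z ^ k = c.1 := hk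
    have hc : c.1 * z * c.1⁻¹ = z := by
      rw [← hk']
      have : Commute (z ^ k) z := (Commute.refl z).zpow_left k
      rw [this.eq]; group
    calc g₀ * c.1 * z * (g₀ * c.1)⁻¹ = g₀ * (c.1 * z * c.1⁻¹) * g₀⁻¹ := by group
      _ = z⁻¹ := by rw [hc, hg₀]

/-- The number of ways of writing `z` as a product of two involutions is `p`. -/
theorem InvHyp.card_pairs [Fintype G] [DecidableEq G] {p : ℕ} (hp : p.Prime) (hp2 : p ≠ 2) {z : G}
    (h : InvHyp p z) :
    (((Finset.univ.filter (fun s : G => orderOf s = 2)) ×ˢ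
      (Finset.univ.filter (fun s : G => orderOf s = 2))).filter
        (fun q => q.1 * q.2 = z)).card = p := by
  have h0 := h.card_inverters
  rw [Nat.card_eq_fintype_card, Fintype.card_subtype] at h0
  rw [← h0]
  have hsq : ∀ s : G, orderOf s = 2 → s⁻¹ = s := by
    intro s hs
    have : s * s = 1 := by rw [← pow_two, ← hs, pow_orderOf_eq_one]
    exact inv_eq_of_mul_eq_one_left this
  apply Finset.card_nbij' (fun q => q.1) (fun g => (g, g⁻¹ * z))
  · intro q hq
    simp only [Finset.coe_filter, Finset.mem_product, Finset.mem_filter, Finset.mem_univ, true_and,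
      Set.mem_ofPred_eq] at hq ⊢
    obtain ⟨⟨h1, h2⟩, h3⟩ := hq
    rw [← h3, mul_inv_rev, hsq _ h1, hsq _ h2]
    have : q.1 * q.1 = 1 := by rw [← pow_two, ← h1, pow_orderOf_eq_one]
    calc q.1 * (q.1 * q.2) * q.1 = (q.1 * q.1) * q.2 * q.1 := by group
      _ = q.2 * q.1 := by rw [this, one_mul]
  · intro g hg
    simp only [Finset.coe_filter, Finset.mem_product, Finset.mem_filter, Finset.mem_univ, true_and,
      Set.mem_ofPred_eq] at hg ⊢
    refine ⟨⟨h.orderOf_eq_two hp hp2 hg, h.orderOf_eq_two hp hp2 ?_⟩, by group⟩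
    have h1 : g⁻¹ * z * g = z⁻¹ := by
      have h2 : z = g⁻¹ * z⁻¹ * g := by rw [← hg]; group
      have h3 := congrArg (·⁻¹) h2
      simp only [mul_inv_rev, inv_inv] at h3
      rw [h3]; group
    calc g⁻¹ * z * z * (g⁻¹ * z)⁻¹ = g⁻¹ * z * g := by group
      _ = z⁻¹ := h1
  · intro q hq
    simp only [Finset.coe_filter, Finset.mem_product, Finset.mem_filter, Finset.mem_univ, true_and,
      Set.mem_ofPred_eq] at hq
    obtain ⟨-, h3⟩ := hq
    apply Prod.ext
    · rfl
    · show q.1⁻¹ * z = q.2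
      rw [← h3]; group
  · intro g _
    rfl

section sylow

variable [Finite G] {p : ℕ} [Fact p.Prime]

theorem mem_zpowers_of_mem_sylow (P : Sylow p G) (hP : Nat.card (P : Subgroup G) = p) {y : G}
    (hy : y ∈ (P : Subgroup G)) (hy1 : y ≠ 1) {z : G} (hz : z ∈ (P : Subgroup G)) :
    z ∈ Subgroup.zpowers y := by
  have h1 : (⟨z, hz⟩ : ↥(P : Subgroup G)) ∈ Subgroup.zpowers (⟨y, hy⟩ : ↥(P : Subgroup G)) :=
    mem_zpowers_of_prime_card hP (fun h0 => hy1 (congrArg Subtype.val h0))
  obtain ⟨n, hn⟩ := h1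
  exact ⟨n, by simpa using congrArg Subtype.val hn⟩

/-- Non-identity elements of a self-centralizing Sylow subgroup of prime order whose normalizer
has order `2p`. -/
theorem invHyp_of_mem_sylow (P : Sylow p G) (hP : Nat.card (P : Subgroup G) = p)
    (hC : Subgroup.centralizer ((P : Subgroup G) : Set G) = (P : Subgroup G))
    (hidx : (Subgroup.centralizer ((P : Subgroup G) : Set G)).relIndex
      (Subgroup.normalizer ((P : Subgroup G) : Set G)) = 2) {y : G}
    (hy : y ∈ (P : Subgroup G)) (hy1 : y ≠ 1) : InvHyp p y := by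
  have hp := (Fact.out : p.Prime)
  have hcomm : ∀ a ∈ (P : Subgroup G), ∀ b ∈ (P : Subgroup G), a * b = b * a :=
    (freeHyp_of_card_prime P hP).comm
  have hcent : ∀ u ∈ (P : Subgroup G), u ≠ 1 → ∀ x : G, x * u = u * x → x ∈ (P : Subgroup G) := by
    intro u hu hu1 x hx
    rw [← hC, Subgroup.mem_centralizer_iff]
    intro w hw
    obtain ⟨n, rfl⟩ := mem_zpowers_of_mem_sylow P hP hu hu1 hw
    have h1 : Commute u x := hx.symm
    exact (h1.zpow_left n).eq
  refine ⟨?_, ?_, ?_⟩
  · have h1 : orderOf y ∣ p := by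
      have := orderOf_dvd_natCard (⟨y, hy⟩ : ↥(P : Subgroup G))
      rwa [hP, Subgroup.orderOf_mk] at this
    rcases (Nat.dvd_prime hp).1 h1 with h2 | h2
    · exact absurd (orderOf_eq_one_iff.1 h2) hy1
    · exact h2
  · intro x hx
    exact mem_zpowers_of_mem_sylow P hP hy hy1 (hcent y hy hy1 x hx)
  · -- an element of `N ∖ C`
    set N := Subgroup.normalizer ((P : Subgroup G) : Set G) with hN
    rw [hC] at hidx
    have hidx' : ((P : Subgroup G).subgroupOf N).index = 2 := hidx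
    obtain ⟨g, hg⟩ : ∃ g : N, g ∉ (P : Subgroup G).subgroupOf N := by
      by_contra hcon
      push Not at hcon
      have : (P : Subgroup G).subgroupOf N = ⊤ := by
        rw [eq_top_iff]; intro g _; exact hcon g
      rw [this, Subgroup.index_top] at hidx'
      omega
    have hg2 : g * g ∈ (P : Subgroup G).subgroupOf N := Subgroup.mul_self_mem_of_index_two hidx' g
    have hgP : (g : G) ∉ (P : Subgroup G) := hg
    have hg2P : (g : G) * g ∈ (P : Subgroup G) := hg2
    have hconj : (g : G) * y * (g : G)⁻¹ ∈ (P : Subgroup G) :=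
      (Subgroup.mem_normalizer_iff.1 g.2 y).1 hy
    refine ⟨g, ?_⟩
    by_contra hne
    have hu : (g : G) * y * (g : G)⁻¹ * y ∈ (P : Subgroup G) := (P : Subgroup G).mul_mem hconj hy
    have hu1 : (g : G) * y * (g : G)⁻¹ * y ≠ 1 := fun h0 => hne (eq_inv_of_mul_eq_one_left h0)
    apply hgP
    apply hcent _ hu hu1
    have h1 : ((g : G) * g) * y = y * ((g : G) * g) := hcomm _ hg2P _ hy
    have h2 : (g : G) * y * (g : G)⁻¹ * y = y * ((g : G) * y * (g : G)⁻¹) := hcomm _ hconj _ hy
    calc (g : G) * ((g : G) * y * (g : G)⁻¹ * y)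
        = ((g : G) * g * y) * (g : G)⁻¹ * y := by group
      _ = y * ((g : G) * g) * (g : G)⁻¹ * y := by rw [h1]
      _ = y * ((g : G) * y * (g : G)⁻¹) * g := by group
      _ = (g : G) * y * (g : G)⁻¹ * y * g := by rw [← h2]

/-- Every `p`-singular element is conjugate to a non-identity element of `P`. -/
theorem exists_conj_mem_sylow (P : Sylow p G) (hP : Nat.card (P : Subgroup G) = p)
    (hC : Subgroup.centralizer ((P : Subgroup G) : Set G) = (P : Subgroup G)) {z : G}
    (hz : p ∣ orderOf z) : ∃ c y : G, y ∈ (P : Subgroup G) ∧ y ≠ 1 ∧ z = c * y * c⁻¹ := by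
  have hp := (Fact.out : p.Prime)
  obtain ⟨n, hn⟩ := hz
  have hord : orderOf (z ^ n) = p := by
    have h0 : orderOf z ≠ 0 := (orderOf_pos z).ne'
    have hn0 : n ≠ 0 := by
      rintro rfl
      rw [mul_zero] at hn
      exact h0 hn
    rw [orderOf_pow_of_dvd hn0 ⟨p, by rw [hn, mul_comm]⟩, hn, Nat.mul_div_cancel _ (Nat.pos_of_ne_zero hn0)]
  have hpg : IsPGroup p (Subgroup.zpowers (z ^ n)) := by
    apply IsPGroup.of_card (n := 1)
    rw [Nat.card_zpowers, hord, pow_one]
  obtain ⟨Q, hQ⟩ := hpg.exists_le_sylow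
  obtain ⟨c, hc⟩ := MulAction.exists_smul_eq G P Q
  have hmem : ∀ x : G, x ∈ (Q : Subgroup G) ↔ c⁻¹ * x * c ∈ (P : Subgroup G) := by
    intro x
    rw [← hc, Sylow.coe_subgroup_smul, Subgroup.mem_pointwise_smul_iff_inv_smul_mem]
    simp [MulAut.smul_def]
  have hy : c⁻¹ * z ^ n * c ∈ (P : Subgroup G) := (hmem _).1 (hQ (Subgroup.mem_zpowers _))
  have hy1 : c⁻¹ * z ^ n * c ≠ 1 := by
    intro h0
    have : z ^ n = 1 := by
      calc z ^ n = c * (c⁻¹ * z ^ n * c) * c⁻¹ := by group
        _ = 1 := by rw [h0]; group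
    rw [this, orderOf_one] at hord
    exact hp.one_lt.ne hord
  have hzP : c⁻¹ * z * c ∈ (P : Subgroup G) := by
    rw [← hC, Subgroup.mem_centralizer_iff]
    intro w hw
    obtain ⟨k, rfl⟩ := mem_zpowers_of_mem_sylow P hP hy hy1 hw
    have h1 : Commute (c⁻¹ * z ^ n * c) (c⁻¹ * z * c) := by
      show c⁻¹ * z ^ n * c * (c⁻¹ * z * c) = c⁻¹ * z * c * (c⁻¹ * z ^ n * c)
      have h2 : z ^ n * z = z * z ^ n := ((Commute.refl z).pow_left n).eq
      calc c⁻¹ * z ^ n * c * (c⁻¹ * z * c) = c⁻¹ * (z ^ n * z) * c := by group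
        _ = c⁻¹ * (z * z ^ n) * c := by rw [h2]
        _ = c⁻¹ * z * c * (c⁻¹ * z ^ n * c) := by group
    exact (h1.zpow_left k).eq
  refine ⟨c, c⁻¹ * z * c, hzP, ?_, by group⟩
  intro h0
  have : z = 1 := by
    calc z = c * (c⁻¹ * z * c) * c⁻¹ := by group
      _ = 1 := by rw [h0]; group
  rw [this, one_pow, orderOf_one] at hord
  exact hp.one_lt.ne hord

end sylow

section chars

/-- A character takes integer values at involutions. -/
theorem char_involution_int [Finite G] {χ : G → ℂ} (h : IsCharacter G χ) {s : G}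
    (hs : orderOf s = 2) : ∃ n : ℤ, χ s = n := by
  obtain ⟨n, ρ, rfl⟩ := h
  obtain ⟨ι, hι, b, μ, h1, h2, -, -⟩ := exists_rep_eigenbasis ρ s
  rw [Representation.character, trace_of_diag b _ _ h1]
  have h3 : ∀ i, ∃ k : ℤ, μ i = k := by
    intro i
    have h4 := h2 i
    rw [hs] at h4
    have h5 : (μ i - 1) * (μ i + 1) = 0 := by linear_combination h4
    rcases mul_eq_zero.1 h5 with h6 | h6
    · exact ⟨1, by push_cast; linear_combination h6⟩
    · exact ⟨-1, by push_cast; linear_combination h6⟩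
  choose k hk using h3
  exact ⟨∑ i, k i, by push_cast; exact Finset.sum_congr rfl fun i _ => hk i⟩

/-- The sum of a non-principal irreducible character over the group vanishes. -/
theorem sum_irr_eq_zero [Fintype G] (ψ : IrrCharacter G) (hψ : ψ ≠ Helper24.oneIrr G) :
    ∑ g : G, (ψ : G → ℂ) g = 0 := by
  have h1 := Helper7.classInner_irr ψ.2 (Helper24.oneIrr G).2
  rw [if_neg (fun h => hψ (Subtype.ext h))] at h1
  have hGc : (Nat.card G : ℂ) ≠ 0 := by exact_mod_cast Nat.card_pos.ne'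
  unfold classInner at h1
  have h2 : ∑ g : G, (ψ : G → ℂ) g * conj (((Helper24.oneIrr G : IrrCharacter G) : G → ℂ) g)
      = ∑ g : G, (ψ : G → ℂ) g := by
    refine Finset.sum_congr rfl fun g _ => ?_
    have : ((Helper24.oneIrr G : IrrCharacter G) : G → ℂ) g = 1 := rfl
    rw [this, map_one, mul_one]
  rw [h2] at h1
  rcases mul_eq_zero.1 h1 with h3 | h3
  · exact absurd (inv_eq_zero.1 h3) hGc
  · exact h3

/-- The double sum of an irreducible character over products of involutions. -/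
theorem sum_sum_involutions [Fintype G] [DecidableEq G] (ψ : IrrCharacter G) :
    ∑ s ∈ Finset.univ.filter (fun s : G => orderOf s = 2),
      ∑ s' ∈ Finset.univ.filter (fun s : G => orderOf s = 2), (ψ : G → ℂ) (s * s')
      = (∑ s ∈ Finset.univ.filter (fun s : G => orderOf s = 2), (ψ : G → ℂ) s) ^ 2
        / (ψ : G → ℂ) 1 := by
  have hGc : (Nat.card G : ℂ) ≠ 0 := by exact_mod_cast Nat.card_pos.ne'
  set Inv := Finset.univ.filter (fun s : G => orderOf s = 2) with hInv
  have h1 : ∀ s' : G, ∑ s ∈ Inv, (ψ : G → ℂ) (s * s')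
      = (∑ s ∈ Inv, (ψ : G → ℂ) s) * (ψ : G → ℂ) s' / (ψ : G → ℂ) 1 := by
    intro s'
    have h2 : ∀ x : G, ∑ s ∈ Inv, (ψ : G → ℂ) (x * s * x⁻¹ * s') = ∑ s ∈ Inv, (ψ : G → ℂ) (s * s') := by
      intro x
      apply Finset.sum_nbij' (fun s => x * s * x⁻¹) (fun s => x⁻¹ * s * x)
      · intro s hs
        simp only [hInv, Finset.mem_filter, Finset.mem_univ, true_and] at hs ⊢
        have : x * s * x⁻¹ = MulAut.conj x s := rfl
        rw [this, MulEquiv.orderOf_eq, hs]
      · intro s hs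
        simp only [hInv, Finset.mem_filter, Finset.mem_univ, true_and] at hs ⊢
        have : x⁻¹ * s * x = MulAut.conj x⁻¹ s := by simp
        rw [this, MulEquiv.orderOf_eq, hs]
      · intro s _; group
      · intro s _; group
      · intro s _; rfl
    have h3 : (Nat.card G : ℂ) * ∑ s ∈ Inv, (ψ : G → ℂ) (s * s')
        = ∑ x : G, ∑ s ∈ Inv, (ψ : G → ℂ) (x * s * x⁻¹ * s') := by
      rw [Finset.sum_congr rfl (fun x _ => h2 x), Finset.sum_const, Finset.card_univ,
        nsmul_eq_mul, Nat.card_eq_fintype_card]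
    rw [Finset.sum_comm, Finset.sum_congr rfl (fun s _ => sum_char_conj_mul ψ.2 s s')] at h3
    apply mul_left_cancel₀ hGc
    rw [h3, Finset.sum_mul, Finset.sum_div, Finset.mul_sum]
    refine Finset.sum_congr rfl fun s _ => ?_
    ring
  rw [Finset.sum_comm, Finset.sum_congr rfl (fun s' _ => h1 s'), ← Finset.sum_div, ← Finset.mul_sum,
    pow_two]

end chars

end Cfsg.Agent.Lib.Helper22
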