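import Cfsg.Agent.Lib.Helper22.BrauerInv

set_option autoImplicit false
set_option linter.style.haveILetI false
set_option linter.unusedSectionVars false
set_option maxHeartbeats 2000000
open Cfsg
open scoped ComplexConjugate

namespace Cfsg.Agent.Lib.Helper22

open Cfsg.Agent.Lib.Helper2

universe u
variable {G : Type u} [Group G] [Finite G] {p : ℕ} [Fact p.Prime]

/-- The structure of the principal block when `|P| = p ≥ 7` and `|N(P) : C(P)| = 2`. -/
theorem brauer_core_two {M : Ideal AlgInt} (hM : IsPModular p M) (P : Sylow p G)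
    (hP : Nat.card (P : Subgroup G) = p) (hp7 : 7 ≤ p)
    (hidx : (Subgroup.centralizer ((P : Subgroup G) : Set G)).relIndex
      (Subgroup.normalizer ((P : Subgroup G) : Set G)) = 2) :
    ∃ (χ η₀ : IrrCharacter G) (a ε : ℤ) (Y : Finset (IrrCharacter G)),
      χ ≠ Helper24.oneIrr G ∧ (a = 1 ∨ a = -1) ∧ (ε = 1 ∨ ε = -1) ∧ η₀ ∈ Y ∧
      Helper24.oneIrr G ∉ Y ∧ χ ∉ Y ∧ Y.card * 2 + 1 = p ∧
      (∀ ψ, ψ ∈ principalBlock M G ↔ ψ = Helper24.oneIrr G ∨ ψ = χ ∨ ψ ∈ Y) ∧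
      (∀ y : G, y ∈ (P : Subgroup G) → y ≠ 1 → (χ : G → ℂ) y = (a : ℂ)) ∧
      (∀ η ∈ Y, ∀ g : G, ¬ p ∣ orderOf g → (η : G → ℂ) g = (η₀ : G → ℂ) g) ∧
      (∀ g : G, ¬ p ∣ orderOf g → 1 + (a : ℂ) * (χ : G → ℂ) g = (ε : ℂ) * (η₀ : G → ℂ) g) := by
  classical
  have hp := (Fact.out : p.Prime)
  have h : FreeHyp P 2 := hidx ▸ freeHyp_of_card_prime P hP
  have hP' : Nat.card P = p := hP
  have hr : 2 + 1 < Nat.card P := by rw [hP']; omega
  obtain ⟨ε, d, ζ, D, X, Y, hε, hB, hdisj, hmemY, hcard, hζ, hone, hX, hYv, hnorm, hYreg, hrel⟩ :=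
    h.core hM hr
  rw [hP'] at hcard
  have hoX := hone (Helper24.oneIrr G) rfl
  have hp1 : ¬ p ∣ orderOf (1 : G) := by
    rw [orderOf_one]; exact hp.one_lt.ne' ∘ Nat.dvd_one.1
  obtain ⟨η₀, hη₀⟩ : Y.Nonempty := by
    rw [← Finset.card_pos]; omega
  have hY3 : (3 : ℤ) ≤ (Y.card : ℤ) := by
    have : 3 ≤ Y.card := by omega
    exact_mod_cast this
  rw [← Finset.add_sum_erase _ _ hoX.1, hoX.2] at hnorm
  set X' := X.erase (Helper24.oneIrr G) with hX'
  have hge : ∀ χ ∈ X', 1 ≤ D χ ^ 2 := by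
    intro χ hχ
    have h0 := (hX χ (Finset.mem_of_mem_erase hχ)).1
    have : 0 < D χ ^ 2 := by positivity
    omega
  have hcardX : (X'.card : ℤ) ≤ ∑ χ ∈ X', D χ ^ 2 := by
    rw [Finset.card_eq_sum_ones]
    push_cast
    exact Finset.sum_le_sum hge
  -- the relation at `1`, over the integers
  have hrel1 : (1 : ℤ) + ∑ χ ∈ X', D χ * (charDegree (χ : G → ℂ) : ℤ)
      + ((Y.card : ℤ) * d - ε) * (charDegree (η₀ : G → ℂ) : ℤ) = 0 := by
    have h1 := hrel η₀ hη₀ 1 hp1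
    rw [← Finset.add_sum_erase _ _ hoX.1, hoX.2] at h1
    have h2 : ((Helper24.oneIrr G : IrrCharacter G) : G → ℂ) 1 = 1 := rfl
    rw [h2] at h1
    have h3 : ∑ χ ∈ X', (D χ : ℂ) * (charDegree (χ : G → ℂ) : ℂ)
        = ∑ χ ∈ X', (D χ : ℂ) * (χ : G → ℂ) 1 :=
      Finset.sum_congr rfl fun χ _ => by
        rw [Helper7.charDegree_cast (Helper7.isCharacter_of_irr χ.2)]
    have h4 : (((1 : ℤ) + ∑ χ ∈ X', D χ * (charDegree (χ : G → ℂ) : ℤ)
      + ((Y.card : ℤ) * d - ε) * (charDegree (η₀ : G → ℂ) : ℤ) : ℤ) : ℂ) = ((0 : ℤ) : ℂ) := by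
      push_cast
      rw [h3, Helper7.charDegree_cast (Helper7.isCharacter_of_irr η₀.2)]
      linear_combination h1
    exact_mod_cast h4
  have hs0 : (0 : ℤ) ≤ ∑ χ ∈ X', D χ ^ 2 := Finset.sum_nonneg fun i _ => sq_nonneg _
  have hd : d = 0 := by
    by_contra hd
    push_cast at hnorm
    have hd2 : 1 ≤ d ^ 2 := by
      have : 0 < d ^ 2 := by positivity
      omega
    have hdε : d = ε ∧ (Y.card : ℤ) = 3 ∧ ∑ χ ∈ X', D χ ^ 2 = 0 := by
      rcases hε with h0 | h0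
      · rw [h0] at hnorm ⊢
        have h1 : d ≤ 1 := by nlinarith
        have h2 : 0 ≤ d := by nlinarith
        have h3 : d = 1 := by omega
        rw [h3] at hnorm
        refine ⟨h3, ?_, ?_⟩ <;> linarith
      · rw [h0] at hnorm ⊢
        have h1 : -1 ≤ d := by nlinarith
        have h2 : d ≤ 0 := by nlinarith
        have h3 : d = -1 := by omega
        rw [h3] at hnorm
        refine ⟨h3, ?_, ?_⟩ <;> linarith
    obtain ⟨h1, h2, h3⟩ := hdε
    have h4 : X' = ∅ := by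
      rw [← Finset.card_eq_zero]
      have : (X'.card : ℤ) ≤ 0 := h3 ▸ hcardX
      omega
    rw [h4, Finset.sum_empty, h1, h2] at hrel1
    rcases hε with h0 | h0 <;> rw [h0] at hrel1 <;> omega
  rw [hd] at hnorm hrel1
  have hs : ∑ χ ∈ X', D χ ^ 2 = 1 := by
    push_cast at hnorm
    linarith
  have hc1 : X'.card = 1 := by
    have h1 : X'.card ≤ 1 := by
      have : (X'.card : ℤ) ≤ 1 := hs ▸ hcardX
      exact_mod_cast this
    have h2 : X'.card ≠ 0 := by
      intro h0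
      rw [Finset.card_eq_zero.1 h0] at hs
      simp at hs
    omega
  obtain ⟨χ, hχ⟩ := Finset.card_eq_one.1 hc1
  rw [hχ, Finset.sum_singleton] at hs
  have hχm : χ ∈ X' := by rw [hχ]; exact Finset.mem_singleton_self χ
  have hχX := Finset.mem_of_mem_erase hχm
  have hχ1 := Finset.ne_of_mem_erase hχm
  have hDpm : D χ = 1 ∨ D χ = -1 := by
    have h0 : (D χ - 1) * (D χ + 1) = 0 := by linear_combination hs
    rcases mul_eq_zero.1 h0 with h1 | h1
    · left; linarith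
    · right; linarith
  have hXmem : ∀ ψ, ψ ∈ X ↔ ψ = Helper24.oneIrr G ∨ ψ = χ := by
    intro ψ
    constructor
    · intro hψ
      by_cases h1 : ψ = Helper24.oneIrr G
      · exact Or.inl h1
      · right
        have : ψ ∈ X' := Finset.mem_erase.2 ⟨h1, hψ⟩
        rw [hχ] at this
        exact Finset.mem_singleton.1 this
    · rintro (rfl | rfl)
      · exact hoX.1
      · exact hχX
  refine ⟨χ, η₀, D χ, ε, Y, hχ1, hDpm, hε, hη₀, ?_, ?_, hcard, ?_, ?_, ?_, ?_⟩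
  · exact fun h0 => (Finset.disjoint_left.1 hdisj hoX.1) h0
  · exact fun h0 => (Finset.disjoint_left.1 hdisj hχX) h0
  · intro ψ
    rw [hB ψ, hXmem ψ, or_assoc]
  · intro y hy hy1
    refine (hX χ hχX).2 y y ⟨1, mul_one y, Commute.one_right y, ?_, hp1⟩ hy hy1
    obtain ⟨k, hk⟩ := P.2 ⟨y, hy⟩
    have h1 : y ^ p ^ k = 1 := by simpa using congrArg Subtype.val hk
    obtain ⟨j, -, hj⟩ := (Nat.dvd_prime_pow hp).1 (orderOf_dvd_of_pow_eq_one h1)
    exact ⟨j, hj⟩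
  · intro η hη g hg
    exact hYreg η hη η₀ hη₀ g hg
  · intro g hg
    have h1 := hrel η₀ hη₀ g hg
    rw [← Finset.add_sum_erase _ _ hoX.1, hoX.2, ← hX', hχ, Finset.sum_singleton, hd] at h1
    have h2 : ((Helper24.oneIrr G : IrrCharacter G) : G → ℂ) g = 1 := rfl
    rw [h2] at h1
    push_cast at h1
    linear_combination h1

theorem brauer_inv_alg (I U W f e a ε pg : ℂ) (hf : f ≠ 0) (he : e ≠ 0) (ha : a * a = 1)
    (hε : ε * ε = 1) (hdeg : 1 + a * f = ε * e) (hW : I + a * U = ε * W)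
    (K : I ^ 2 + a * (U ^ 2 / f) - ε * (W ^ 2 / e) = pg) :
    (f * I - U) ^ 2 = pg * f * (f + a) := by
  have he' : e = ε * (1 + a * f) := by linear_combination (-ε) * hdeg - e * hε
  have hW' : W = ε * (I + a * U) := by linear_combination (-ε) * hW - W * hε
  have hε0 : ε ≠ 0 := by
    rintro rfl
    simp at hε
  have ht : 1 + a * f ≠ 0 := by
    intro h0
    rw [h0, mul_zero] at he'
    exact he he'
  have hterm : ε * (W ^ 2 / e) = (I + a * U) ^ 2 / (1 + a * f) := by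
    rw [he', hW', mul_pow, pow_two ε, hε, one_mul, ← mul_div_assoc, mul_div_mul_left _ _ hε0]
  rw [hterm] at K
  have K3 : pg * (f * (1 + a * f))
      = I ^ 2 * f * (1 + a * f) + a * U ^ 2 * (1 + a * f) - (I + a * U) ^ 2 * f := by
    rw [← K]; field_simp
  linear_combination (-a) * K3 + (pg * f ^ 2 - (f * I - U) ^ 2) * ha

/-- Counting products of two involutions in the principal block: a square condition. -/
theorem brauer_inv_square (P : Sylow p G) (hP : Nat.card (P : Subgroup G) = p) (hp7 : 7 ≤ p)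
    (hC : Subgroup.centralizer ((P : Subgroup G) : Set G) = (P : Subgroup G))
    (hidx : (Subgroup.centralizer ((P : Subgroup G) : Set G)).relIndex
      (Subgroup.normalizer ((P : Subgroup G) : Set G)) = 2) :
    ∃ (χ η : IrrCharacter G) (a ε w : ℤ), χ ≠ Helper24.oneIrr G ∧ (a = 1 ∨ a = -1) ∧
      (ε = 1 ∨ ε = -1) ∧ (p : ℤ) ∣ (charDegree (χ : G → ℂ) : ℤ) - a ∧
      1 + a * (charDegree (χ : G → ℂ) : ℤ) = ε * (charDegree (η : G → ℂ) : ℤ) ∧
      w ^ 2 = (p : ℤ) * (Nat.card G : ℤ) * (charDegree (χ : G → ℂ) : ℤ)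
        * ((charDegree (χ : G → ℂ) : ℤ) + a) := by
  classical
  haveI := Fintype.ofFinite G
  have hp := (Fact.out : p.Prime)
  have hp2 : p ≠ 2 := by omega
  obtain ⟨M, hM⟩ := Helper7.exists_isPModular hp
  obtain ⟨χ, η₀, a, ε, Y, hχ1, ha, hε, hη₀, hoY, hχY, hcard, hB, hχP, hYreg, hrel⟩ :=
    brauer_core_two hM P hP hp7 hidx
  have hp1 : ¬ p ∣ orderOf (1 : G) := by
    rw [orderOf_one]; exact hp.one_lt.ne' ∘ Nat.dvd_one.1
  obtain ⟨f, hf⟩ : ∃ f : ℕ, f = charDegree (χ : G → ℂ) := ⟨_, rfl⟩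
  obtain ⟨e, he⟩ : ∃ e : ℕ, e = charDegree (η₀ : G → ℂ) := ⟨_, rfl⟩
  have hfc : (χ : G → ℂ) 1 = f := by
    rw [hf, Helper7.charDegree_cast (Helper7.isCharacter_of_irr χ.2)]
  have hec : (η₀ : G → ℂ) 1 = e := by
    rw [he, Helper7.charDegree_cast (Helper7.isCharacter_of_irr η₀.2)]
  have hf0 : (f : ℂ) ≠ 0 := by
    rw [← hfc]; exact Helper7.irr_apply_one_ne_zero χ.2
  have he0 : (e : ℂ) ≠ 0 := by
    rw [← hec]; exact Helper7.irr_apply_one_ne_zero η₀.2
  have haa : (a : ℂ) * a = 1 := by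
    rcases ha with h0 | h0 <;> rw [h0] <;> norm_num
  have hεε : (ε : ℂ) * ε = 1 := by
    rcases hε with h0 | h0 <;> rw [h0] <;> norm_num
  have hdegc : 1 + (a : ℂ) * f = ε * e := by
    have := hrel 1 hp1
    rwa [hfc, hec] at this
  have hdeg : 1 + a * (f : ℤ) = ε * (e : ℤ) := by exact_mod_cast hdegc
  have hpc : (p : ℂ) - 1 = 2 * (Y.card : ℂ) := by
    have : (p : ℂ) = ((Y.card * 2 + 1 : ℕ) : ℂ) := by rw [hcard]
    rw [this]; push_cast; ring
  -- the class function `Θ`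
  obtain ⟨Θ, hΘ⟩ : ∃ Θ : G → ℂ, Θ = fun g => ((p : ℂ) - 1) * (1 + (a : ℂ) * (χ : G → ℂ) g)
      - 2 * (ε : ℂ) * ∑ η ∈ Y, (η : G → ℂ) g := ⟨_, rfl⟩
  have hΘreg : ∀ g : G, ¬ p ∣ orderOf g → Θ g = 0 := by
    intro g hg
    rw [hΘ]
    simp only
    rw [Finset.sum_congr rfl (fun η hη => hYreg η hη g hg), Finset.sum_const, nsmul_eq_mul,
      hrel g hg, hpc]
    ring
  have hpbF : pbF M G = insert (Helper24.oneIrr G) (insert χ Y) := by
    ext ψ
    rw [mem_pbF, hB ψ, Finset.mem_insert, Finset.mem_insert]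
  have hΘsing : ∀ g : G, p ∣ orderOf g → Θ g = 2 * p := by
    intro g hg
    obtain ⟨c, y, hy, hy1, rfl⟩ := exists_conj_mem_sylow P hP hC hg
    rw [hΘ]
    simp only [pb_conj_left]
    have hyo : ∃ k : ℕ, orderOf y = p ^ k := by
      obtain ⟨k, hk⟩ := P.2 ⟨y, hy⟩
      have h1 : y ^ p ^ k = 1 := by simpa using congrArg Subtype.val hk
      obtain ⟨j, -, hj⟩ := (Nat.dvd_prime_pow hp).1 (orderOf_dvd_of_pow_eq_one h1)
      exact ⟨j, hj⟩
    have h1 := pb_orth hM (g := y) (h := 1) (x := y) (y := 1)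
      ⟨1, mul_one y, Commute.one_right y, hyo, hp1⟩
      ⟨1, mul_one 1, Commute.one_right 1, ⟨0, by simp⟩, hp1⟩
      (fun hc => hy1 (isConj_one_right.1 hc.symm))
    rw [hpbF, Finset.sum_insert (by
        rw [Finset.mem_insert]; rintro (h0 | h0)
        · exact hχ1 h0.symm
        · exact hoY h0), Finset.sum_insert hχY] at h1
    have h2 : ∑ η ∈ Y, (η : G → ℂ) y * conj ((η : G → ℂ) 1) = (∑ η ∈ Y, (η : G → ℂ) y) * e := by
      rw [Finset.sum_mul]
      refine Finset.sum_congr rfl fun η hη => ?_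
      rw [hYreg η hη 1 hp1, hec, map_natCast]
    have h3 : ((Helper24.oneIrr G : IrrCharacter G) : G → ℂ) y = 1 := rfl
    have h4 : ((Helper24.oneIrr G : IrrCharacter G) : G → ℂ) 1 = 1 := rfl
    rw [h2, h3, h4, hχP y hy hy1, hfc, map_one, map_natCast] at h1
    have h5 : ∑ η ∈ Y, (η : G → ℂ) y = -ε := by
      have h6 : ((∑ η ∈ Y, (η : G → ℂ) y) + ε) * e = 0 := by linear_combination h1 - hdegc
      rcases mul_eq_zero.1 h6 with h7 | h7
      · linear_combination h7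
      · exact absurd h7 he0
    rw [h5, hχP y hy hy1]
    linear_combination ((p : ℂ) - 1) * haa + 2 * hεε
  have hΘite : ∀ g : G, Θ g = if p ∣ orderOf g then 2 * (p : ℂ) else 0 := by
    intro g
    split_ifs with hg
    · exact hΘsing g hg
    · exact hΘreg g hg
  -- the number of `p`-singular elements
  obtain ⟨Sing, hSing⟩ : ∃ S : Finset G, S = Finset.univ.filter (fun g : G => p ∣ orderOf g) :=
    ⟨_, rfl⟩
  have hsum1 : ∑ g : G, Θ g = 2 * (p : ℂ) * Sing.card := by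
    rw [Finset.sum_congr rfl (fun g _ => hΘite g), Finset.sum_ite, Finset.sum_const_zero, add_zero,
      Finset.sum_const, nsmul_eq_mul, hSing]
    ring
  have hsum2 : ∑ g : G, Θ g = ((p : ℂ) - 1) * Nat.card G := by
    rw [hΘ]
    simp only
    rw [Finset.sum_sub_distrib, ← Finset.mul_sum, ← Finset.mul_sum, Finset.sum_add_distrib,
      ← Finset.mul_sum, sum_irr_eq_zero χ hχ1, Finset.sum_comm,
      Finset.sum_eq_zero (fun η hη => sum_irr_eq_zero η (fun h0 => hoY (h0 ▸ hη)))]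
    simp [Nat.card_eq_fintype_card]
  have hS : 2 * (p : ℂ) * Sing.card = ((p : ℂ) - 1) * Nat.card G := hsum1.symm.trans hsum2
  -- pairs of involutions
  obtain ⟨Inv, hInv⟩ : ∃ S : Finset G, S = Finset.univ.filter (fun s : G => orderOf s = 2) :=
    ⟨_, rfl⟩
  have hInvreg : ∀ s ∈ Inv, ¬ p ∣ orderOf s := by
    intro s hs
    rw [hInv, Finset.mem_filter] at hs
    rw [hs.2]
    exact fun h0 => hp2 ((Nat.prime_dvd_prime_iff_eq hp Nat.prime_two).1 h0)
  have hT : (((Inv ×ˢ Inv).filter (fun q => p ∣ orderOf (q.1 * q.2))).card : ℂ)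
      = (p : ℂ) * Sing.card := by
    have h1 := Finset.card_eq_sum_card_fiberwise (f := fun q : G × G => q.1 * q.2)
      (s := (Inv ×ˢ Inv).filter (fun q => p ∣ orderOf (q.1 * q.2))) (t := Sing) (by
        intro q hq
        have hq' := (Finset.mem_filter.1 hq).2
        show q.1 * q.2 ∈ Sing
        rw [hSing, Finset.mem_filter]
        exact ⟨Finset.mem_univ _, hq'⟩)
    rw [h1, Finset.sum_congr rfl (g := fun _ => p), Finset.sum_const, smul_eq_mul]
    · push_cast; ring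
    · intro z hz
      rw [hSing, Finset.mem_filter] at hz
      obtain ⟨c, y, hy, hy1, rfl⟩ := exists_conj_mem_sylow P hP hC hz.2
      have hinv := (invHyp_of_mem_sylow P hP hC hidx hy hy1).conj c
      have hcp := hinv.card_pairs hp hp2
      rw [← hInv] at hcp
      refine Eq.trans ?_ hcp
      rw [Finset.filter_filter]
      congr 1
      apply Finset.filter_congr
      intro q _
      constructor
      · exact fun h0 => h0.2
      · intro h0
        exact ⟨by rw [h0]; exact hz.2, h0⟩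
  have hsum3 : ∑ s ∈ Inv, ∑ s' ∈ Inv, Θ (s * s') = 2 * (p : ℂ) * ((p : ℂ) * Sing.card) := by
    rw [← hT, ← Finset.sum_product' (f := fun s s' => Θ (s * s')),
      Finset.sum_congr rfl (fun q _ => hΘite (q.1 * q.2)), Finset.sum_ite, Finset.sum_const_zero,
      add_zero, Finset.sum_const, nsmul_eq_mul]
    ring
  -- expansion by characters
  obtain ⟨U, hU⟩ : ∃ U : ℂ, U = ∑ s ∈ Inv, (χ : G → ℂ) s := ⟨_, rfl⟩
  obtain ⟨W, hW⟩ : ∃ W : ℂ, W = ∑ s ∈ Inv, (η₀ : G → ℂ) s := ⟨_, rfl⟩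
  have hBχ : ∑ s ∈ Inv, ∑ s' ∈ Inv, (χ : G → ℂ) (s * s') = U ^ 2 / f := by
    rw [hU, hInv, sum_sum_involutions χ, hfc]
  have hBη : ∀ η ∈ Y, ∑ s ∈ Inv, ∑ s' ∈ Inv, (η : G → ℂ) (s * s') = W ^ 2 / e := by
    intro η hη
    have h1 : ∑ s ∈ Inv, (η : G → ℂ) s = W := by
      rw [hW]
      exact Finset.sum_congr rfl fun s hs => hYreg η hη s (hInvreg s hs)
    rw [← h1, hInv, sum_sum_involutions η, hYreg η hη 1 hp1, hec]
  have hsum4 : ∑ s ∈ Inv, ∑ s' ∈ Inv, Θ (s * s')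
      = ((p : ℂ) - 1) * ((Inv.card : ℂ) ^ 2 + a * (U ^ 2 / f))
        - 2 * (ε : ℂ) * ((Y.card : ℂ) * (W ^ 2 / e)) := by
    have h1 : ∑ s ∈ Inv, ∑ s' ∈ Inv, ∑ η ∈ Y, (η : G → ℂ) (s * s')
        = (Y.card : ℂ) * (W ^ 2 / e) := by
      rw [Finset.sum_congr rfl (fun s _ => Finset.sum_comm), Finset.sum_comm,
        Finset.sum_congr rfl hBη, Finset.sum_const, nsmul_eq_mul]
    have h2 : ∑ s ∈ Inv, ∑ s' ∈ Inv, (1 : ℂ) = (Inv.card : ℂ) ^ 2 := by
      simp [pow_two]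
    rw [hΘ]
    simp only
    simp only [Finset.sum_sub_distrib, ← Finset.mul_sum, Finset.sum_add_distrib]
    rw [h1, h2, hBχ]
  have hWrel : (Inv.card : ℂ) + a * U = ε * W := by
    rw [hU, hW, Finset.mul_sum, Finset.mul_sum, ← Finset.sum_congr rfl
      (fun s hs => hrel s (hInvreg s hs)), Finset.sum_add_distrib]
    simp
  have hp10 : (p : ℂ) - 1 ≠ 0 := by
    rw [hpc]
    have : (Y.card : ℂ) ≠ 0 := by
      have : Y.card ≠ 0 := by omega
      exact_mod_cast this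
    exact mul_ne_zero two_ne_zero this
  have K : (Inv.card : ℂ) ^ 2 + a * (U ^ 2 / f) - ε * (W ^ 2 / e) = (p : ℂ) * Nat.card G := by
    apply mul_left_cancel₀ hp10
    have h1 := hsum4.symm.trans hsum3
    linear_combination h1 + (p : ℂ) * hS - (ε : ℂ) * (W ^ 2 / e) * hpc
  have hfin := brauer_inv_alg _ _ _ _ _ _ _ _ hf0 he0 haa hεε hdegc hWrel K
  -- integrality
  have hUint : ∃ u : ℤ, U = u := by
    have h1 : ∀ s ∈ Inv, ∃ n : ℤ, (χ : G → ℂ) s = n := by
      intro s hs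
      rw [hInv, Finset.mem_filter] at hs
      exact char_involution_int (Helper7.isCharacter_of_irr χ.2) hs.2
    choose! k hk using h1
    exact ⟨∑ s ∈ Inv, k s, by rw [hU]; push_cast; exact Finset.sum_congr rfl hk⟩
  obtain ⟨u, hu⟩ := hUint
  refine ⟨χ, η₀, a, ε, (f : ℤ) * (Inv.card : ℤ) - u, hχ1, ha, hε, ?_, ?_, ?_⟩
  · have := card_dvd_degree_sub (P : Subgroup G) χ a hχP
    rwa [hP] at this
  · rw [← hf, ← he]; exact hdeg
  · rw [← hf]
    rw [hu] at hfin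
    exact_mod_cast hfin

end Cfsg.Agent.Lib.Helper22
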