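import Mathlib
import Cfsg.Agent.Lib.Helper22.Basic

set_option autoImplicit false

namespace Cfsg.Agent.Lib.Helper22.PiC

open Subgroup

/-- all prime divisors lie in `π` -/
def PiNum (π : Set ℕ) (n : ℕ) : Prop := ∀ p : ℕ, p.Prime → p ∣ n → p ∈ π

/-- no prime divisor lies in `π` -/
def PiNum' (π : Set ℕ) (n : ℕ) : Prop := ∀ p : ℕ, p.Prime → p ∣ n → p ∉ π

theorem PiNum.of_dvd {π : Set ℕ} {m n : ℕ} (h : PiNum π n) (hd : m ∣ n) : PiNum π m :=
  fun p hp hpm => h p hp (hpm.trans hd)

theorem PiNum'.of_dvd {π : Set ℕ} {m n : ℕ} (h : PiNum' π n) (hd : m ∣ n) : PiNum' π m :=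
  fun p hp hpm => h p hp (hpm.trans hd)

theorem PiNum.mul {π : Set ℕ} {m n : ℕ} (h : PiNum π m) (h' : PiNum π n) : PiNum π (m * n) :=
  fun p hp hpm => (hp.dvd_mul.1 hpm).elim (h p hp) (h' p hp)

theorem PiNum.coprime {π : Set ℕ} {m n : ℕ} (h : PiNum π m) (h' : PiNum' π n) :
    Nat.Coprime m n :=
  Nat.coprime_of_dvd fun k hk hkm hkn => h' k hk hkn (h k hk hkm)

theorem piNum_prime_pow {π : Set ℕ} {r : ℕ} (hr : r.Prime) (hrπ : r ∈ π) (k : ℕ) :
    PiNum π (r ^ k) := by
  intro p hp hd
  rw [(Nat.prime_dvd_prime_iff_eq hp hr).1 (hp.dvd_of_dvd_pow hd)]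
  exact hrπ

/-- membership from a power, coprimality -/
theorem mem_of_pow_mem {G : Type*} [Group G] (H : Subgroup G) {g : G} {a : ℕ}
    (ha : g ^ a ∈ H) (hc : Nat.Coprime a (orderOf g)) : g ∈ H :=
  mem_of_pow_mem_of_coprime H g a (orderOf g) hc ha (by rw [pow_orderOf_eq_one]; exact H.one_mem)

theorem relIndex_mul_card {P : Type*} [Group P] {H K : Subgroup P} (h : H ≤ K) :
    H.relIndex K * Nat.card H = Nat.card K := by
  have h1 := (H.subgroupOf K).index_mul_card
  rwa [Nat.card_congr (Subgroup.subgroupOfEquivOfLe h).toEquiv] at h1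

/-- A normal Hall `π`-subgroup consists exactly of the `π`-elements (relative version). -/
theorem mem_iff_of_hall {G : Type*} [Group G] [Finite G] {π : Set ℕ} {T X : Subgroup G}
    [T.Normal] (hT : PiNum π (Nat.card T)) (hidx : PiNum' π (T.relIndex X)) {x : G}
    (hx : x ∈ X) : x ∈ T ↔ PiNum π (orderOf x) := by
  constructor
  · intro h
    have : orderOf x ∣ Nat.card T := by
      have := orderOf_dvd_natCard (⟨x, h⟩ : T)
      rwa [Subgroup.orderOf_mk] at this
    exact hT.of_dvd this
  · intro h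
    exact mem_of_pow_mem T (Subgroup.pow_relIndex_mem T hx) (h.coprime hidx).symm

/-- If the `π`-elements of a normal subgroup `K` form the subgroup `L`, then `L` is a normal Hall
`π`-subgroup of `K`. -/
theorem hall_of_mem_iff {G : Type*} [Group G] [Finite G] {π : Set ℕ} {L K : Subgroup G}
    [K.Normal] (hLK : L ≤ K) (h : ∀ x ∈ K, x ∈ L ↔ PiNum π (orderOf x)) :
    L.Normal ∧ PiNum π (Nat.card L) ∧ PiNum' π (L.relIndex K) := by
  classical
  refine ⟨⟨fun n hn g => ?_⟩, ?_, ?_⟩
  · have hK : g * n * g⁻¹ ∈ K := Subgroup.Normal.conj_mem inferInstance n (hLK hn) g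
    rw [h _ hK]
    have : orderOf (g * n * g⁻¹) = orderOf n := by
      have := MulEquiv.orderOf_eq (MulAut.conj g) n
      simpa using this
    rw [this]
    exact (h n (hLK hn)).1 hn
  · intro p hp hd
    haveI : Fact p.Prime := ⟨hp⟩
    obtain ⟨x, hx⟩ := exists_prime_orderOf_dvd_card' (G := L) p hd
    have h1 := (h x (hLK x.2)).1 x.2
    rw [Subgroup.orderOf_coe, hx] at h1
    exact h1 p hp dvd_rfl
  · intro p hp hd hpπ
    haveI : Fact p.Prime := ⟨hp⟩
    let S : Sylow p K := default
    have hS : (S : Subgroup K) ≤ L.subgroupOf K := by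
      intro s hs
      rw [Subgroup.mem_subgroupOf, h _ s.2]
      obtain ⟨k, hk⟩ := S.2 ⟨s, hs⟩
      have hk' : (s : G) ^ p ^ k = 1 := by
        have := congrArg (fun t : (S : Subgroup K) => ((t : K) : G)) hk
        simpa using this
      exact (piNum_prime_pow hp hpπ k).of_dvd (orderOf_dvd_of_pow_eq_one hk')
    exact S.not_dvd_index (hd.trans (Subgroup.index_dvd_of_le hS))

/-- The working hypothesis: `π`-elements normalizing a `q`-subgroup, `q ∉ π`, centralize it. -/
def HC (π : Set ℕ) (G : Type*) [Group G] : Prop :=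
  ∀ q : ℕ, q.Prime → q ∉ π → ∀ Q : Subgroup G, IsPGroup q Q →
    ∀ n ∈ Subgroup.normalizer (Q : Set G), PiNum π (orderOf n) →
      n ∈ Subgroup.centralizer (Q : Set G)

theorem hc_of_hom {G : Type*} [Group G] [Finite G] {π : Set ℕ}
    (hhom : ∀ H : Subgroup G, H ≠ ⊥ → (∀ p : ℕ, p.Prime → p ∣ Nat.card ↥H → p ∉ π) →
      ∀ p : ℕ, p.Prime → p ∣ (Subgroup.centralizer (H : Set G)).relIndex
        (Subgroup.normalizer (H : Set G)) → p ∉ π) : HC π G := by
  intro q hq hqπ Q hQ n hn hnπ
  by_cases hQb : Q = ⊥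
  · subst hQb
    rw [Subgroup.mem_centralizer_iff]
    intro h hh
    rw [SetLike.mem_coe, Subgroup.mem_bot] at hh
    rw [hh]; simp
  have h1 : PiNum' π ((Subgroup.centralizer (Q : Set G)).relIndex
      (Subgroup.normalizer (Q : Set G))) := by
    apply hhom Q hQb
    intro p hp hd
    haveI : Fact q.Prime := ⟨hq⟩
    obtain ⟨k, hk⟩ := (IsPGroup.iff_card (p := q)).1 hQ
    rw [hk] at hd
    rw [(Nat.prime_dvd_prime_iff_eq hp hq).1 (hp.dvd_of_dvd_pow hd)]
    exact hqπ
  haveI : ((Subgroup.centralizer (Q : Set G)).subgroupOf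
      (Subgroup.normalizer (Q : Set G))).Normal := by
    rw [← Subgroup.normalizerMonoidHom_ker]
    infer_instance
  have h2 := Subgroup.pow_index_mem ((Subgroup.centralizer (Q : Set G)).subgroupOf
      (Subgroup.normalizer (Q : Set G))) ⟨n, hn⟩
  have h3 : n ^ (Subgroup.centralizer (Q : Set G)).relIndex (Subgroup.normalizer (Q : Set G)) ∈
      Subgroup.centralizer (Q : Set G) := by
    rw [Subgroup.mem_subgroupOf] at h2
    exact h2
  exact mem_of_pow_mem _ h3 (hnπ.coprime h1).symm

/-- A normal `π'`-subgroup of `π`-index whose centralizer has `π'`-index has a normal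
complement. -/
theorem exists_hall_of_centralizer {Y : Type*} [Group Y] [Finite Y] {π : Set ℕ} (K : Subgroup Y)
    [K.Normal] (hK : PiNum' π (Nat.card K)) (hidx : PiNum π K.index)
    (hcen : PiNum' π (Subgroup.centralizer (K : Set Y)).index) :
    ∃ T : Subgroup Y, T.Normal ∧ PiNum π (Nat.card T) ∧ PiNum' π T.index := by
  obtain ⟨T, hT⟩ := Subgroup.exists_left_complement'_of_coprime (N := K) (hidx.coprime hK).symm
  have hcardT : K.index = Nat.card T := hT.index_eq_card
  have hTidx : T.index = Nat.card K := hT.symm.index_eq_card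
  have hTC : T ≤ Subgroup.centralizer (K : Set Y) := by
    intro t ht
    have h1 : t ^ (Subgroup.centralizer (K : Set Y)).index ∈ Subgroup.centralizer (K : Set Y) :=
      Subgroup.pow_index_mem _ t
    have h2 : PiNum π (orderOf t) := by
      apply hidx.of_dvd
      rw [hcardT]
      have := orderOf_dvd_natCard (⟨t, ht⟩ : T)
      rwa [Subgroup.orderOf_mk] at this
    exact mem_of_pow_mem _ h1 (h2.coprime hcen).symm
  refine ⟨T, ⟨fun t ht g => ?_⟩, hcardT ▸ hidx, hTidx ▸ hK⟩
  obtain ⟨⟨⟨t', ht'⟩, ⟨k, hk⟩⟩, rfl⟩ := hT.2 g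
  have h1 : k * t = t * k := Subgroup.mem_centralizer_iff.1 (hTC ht) k hk
  have h2 : t' * k * t * (t' * k)⁻¹ = t' * t * t'⁻¹ := by
    calc t' * k * t * (t' * k)⁻¹ = t' * (k * t) * k⁻¹ * t'⁻¹ := by group
      _ = t' * t * t'⁻¹ := by rw [h1]; group
  show t' * k * t * (t' * k)⁻¹ ∈ T
  rw [h2]
  exact T.mul_mem (T.mul_mem ht' ht) (T.inv_mem ht')

theorem index_mul_card_inf {G : Type*} [Group G] [Finite G] (H K : Subgroup G) [K.Normal]
    (h : H ⊔ K = ⊤) : H.index * Nat.card (K ⊓ H : Subgroup G) = Nat.card K := by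
  have h1 : K.index = K.relIndex H := by
    rw [← Subgroup.relIndex_sup_right (H := H) (K := K), h, Subgroup.relIndex_top_right]
  have h2 : K.relIndex H * Nat.card (K ⊓ H : Subgroup G) = Nat.card H := by
    rw [← Subgroup.inf_relIndex_right]
    exact relIndex_mul_card inf_le_right
  have h3 := K.index_mul_card
  have h4 := H.index_mul_card
  have hpos : 0 < K.relIndex H := by
    rcases Nat.eq_zero_or_pos (K.relIndex H) with h0 | h0
    · rw [h0, zero_mul] at h2
      exact absurd h2.symm Nat.card_pos.ne'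
    · exact h0
  apply Nat.eq_of_mul_eq_mul_left hpos
  calc K.relIndex H * (H.index * Nat.card (K ⊓ H : Subgroup G))
      = H.index * (K.relIndex H * Nat.card (K ⊓ H : Subgroup G)) := by ring
    _ = Nat.card G := by rw [h2, h4]
    _ = K.relIndex H * Nat.card K := by rw [← h1, h3]

theorem exists_conj_mem {G : Type*} [Group G] [Finite G] {r : ℕ} [Fact r.Prime] (H : Subgroup G)
    (hH : ¬ r ∣ H.index) (x : G) (k : ℕ) (hx : x ^ r ^ k = 1) : ∃ g : G, g * x * g⁻¹ ∈ H := by
  have hp : IsPGroup r (zpowers x) := by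
    rintro ⟨y, hy⟩
    obtain ⟨i, rfl⟩ := mem_zpowers_iff.1 hy
    refine ⟨k, Subtype.ext ?_⟩
    show (x ^ i) ^ r ^ k = 1
    rw [← zpow_natCast, ← zpow_mul, mul_comm, zpow_mul, zpow_natCast, hx, one_zpow]
  obtain ⟨a, ha⟩ := hp.nonempty_fixed_point_of_prime_not_dvd_card (G ⧸ H) hH
  obtain ⟨g, rfl⟩ := QuotientGroup.mk_surjective a
  refine ⟨g⁻¹, ?_⟩
  have h1 := ha ⟨x, mem_zpowers x⟩
  have h2 : ((x * g : G) : G ⧸ H) = (g : G ⧸ H) := h1
  rw [QuotientGroup.eq] at h2
  have h3 : g⁻¹ * x * g⁻¹⁻¹ = ((x * g)⁻¹ * g)⁻¹ := by group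
  rw [h3]
  exact H.inv_mem h2

theorem dvd_of_forall_prime_pow {a b : ℕ} (ha : a ≠ 0) (hb : b ≠ 0)
    (h : ∀ q : ℕ, q.Prime → q ^ a.factorization q ∣ b) : a ∣ b := by
  rw [← Nat.factorization_prime_le_iff_dvd ha hb]
  intro q hq
  exact (hq.pow_dvd_iff_le_factorization hb).1 (h q hq)

/-- Lemma A: `r`-elements (`r ∈ π`) centralize `K / L`. -/
theorem mk_mem_centralizer {G : Type*} [Group G] [Finite G] {π : Set ℕ} (hC : HC π G)
    (L K : Subgroup G) [L.Normal] [K.Normal] (hLK : L ≤ K) (hL : PiNum π (Nat.card L))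
    (hKL : PiNum' π (L.relIndex K)) {r : ℕ} (hr : r.Prime) (hrπ : r ∈ π) (x : G) (k : ℕ)
    (hx : x ^ r ^ k = 1) :
    QuotientGroup.mk' L x ∈ Subgroup.centralizer
      ((K.map (QuotientGroup.mk' L) : Subgroup (G ⧸ L)) : Set (G ⧸ L)) := by
  classical
  haveI : Fact r.Prime := ⟨hr⟩
  set f := QuotientGroup.mk' L with hf
  have hfL : ∀ l ∈ L, f l = 1 := fun l hl => (QuotientGroup.eq_one_iff l).2 hl
  set D : Subgroup G := K ⊓ (Subgroup.centralizer ({f x} : Set (G ⧸ L))).comap f with hD
  have hLD : L ≤ D := by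
    intro l hl
    refine Subgroup.mem_inf.2 ⟨hLK hl, ?_⟩
    rw [Subgroup.mem_comap, hfL l hl]
    exact Subgroup.one_mem _
  have hcardK := relIndex_mul_card hLK
  have hdvd : Nat.card K ∣ Nat.card D := by
    apply dvd_of_forall_prime_pow Nat.card_pos.ne' Nat.card_pos.ne'
    intro q hq
    by_cases hqπ : q ∈ π
    · have h1 : ¬ q ∣ L.relIndex K := fun h => hKL q hq h hqπ
      have h0 : L.relIndex K ≠ 0 := by
        intro h0
        rw [h0, zero_mul] at hcardK
        exact Nat.card_pos.ne' hcardK.symm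
      have h2 : (Nat.card K).factorization q = (Nat.card L).factorization q := by
        rw [← hcardK, Nat.factorization_mul h0 Nat.card_pos.ne']
        simp [Nat.factorization_eq_zero_of_not_dvd h1]
      rw [h2]
      exact (Nat.ordProj_dvd _ _).trans (Subgroup.card_dvd_of_le hLD)
    · haveI : Fact q.Prime := ⟨hq⟩
      let Q₀ : Sylow q K := default
      set Q : Subgroup G := (Q₀ : Subgroup K).map K.subtype with hQ
      have hQcard : Nat.card Q = q ^ (Nat.card K).factorization q := by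
        rw [hQ, Subgroup.card_map_of_injective K.subtype_injective]
        exact Q₀.card_eq_multiplicity
      have hQp : IsPGroup q Q := Q₀.2.map _
      have hQK : Q ≤ K := by
        rintro _ ⟨u, _, rfl⟩
        exact u.2
      have hfr : Subgroup.normalizer (Q : Set G) ⊔ K = ⊤ := Sylow.normalizer_sup_eq_top Q₀
      have hHK : (Subgroup.normalizer (Q : Set G) ⊔ L) ⊔ K = ⊤ := by
        rw [sup_assoc, sup_eq_right.2 hLK, hfr]
      have him := index_mul_card_inf _ K hHK
      have hLle : L ≤ K ⊓ (Subgroup.normalizer (Q : Set G) ⊔ L) := le_inf hLK le_sup_right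
      obtain ⟨c, hc⟩ := Subgroup.card_dvd_of_le hLle
      have hidx : (Subgroup.normalizer (Q : Set G) ⊔ L).index ∣ L.relIndex K := by
        refine ⟨c, ?_⟩
        apply Nat.eq_of_mul_eq_mul_right (Nat.card_pos (α := L))
        rw [hcardK, ← him, hc]; ring
      have hrH : ¬ r ∣ (Subgroup.normalizer (Q : Set G) ⊔ L).index :=
        fun h => hKL r hr (h.trans hidx) hrπ
      obtain ⟨g, hg⟩ := exists_conj_mem _ hrH x k hx
      rw [← SetLike.mem_coe, Subgroup.mul_normal] at hg
      obtain ⟨n, hn, l, hl, hnl⟩ := Set.mem_mul.1 hg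
      have hfn : f n = f g * f x * (f g)⁻¹ := by
        have : f (n * l) = f (g * x * g⁻¹) := by rw [hnl]
        rw [map_mul, hfL l hl, mul_one] at this
        rw [this]; simp
      have hfnpow : f n ^ r ^ k = 1 := by
        rw [hfn, conj_pow, ← map_pow, hx, map_one]; simp
      have hnL : n ^ r ^ k ∈ L := by
        rw [← QuotientGroup.eq_one_iff]
        have : f (n ^ r ^ k) = 1 := by rw [map_pow, hfnpow]
        exact this
      have hnord : PiNum π (orderOf n) := by
        apply ((piNum_prime_pow hr hrπ k).mul hL).of_dvd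
        apply orderOf_dvd_of_pow_eq_one
        rw [pow_mul]
        have := pow_card_eq_one' (G := L) (x := ⟨n ^ r ^ k, hnL⟩)
        exact congrArg Subtype.val this
      have hnC := hC q hq hqπ Q hQp n hn hnord
      have hQ'D : Q.map (MulAut.conj g⁻¹).toMonoidHom ≤ D := by
        rintro _ ⟨u, hu, rfl⟩
        have hu' : (MulAut.conj g⁻¹).toMonoidHom u = g⁻¹ * u * g := by simp
        rw [hu']
        refine Subgroup.mem_inf.2 ⟨?_, ?_⟩
        · have := Subgroup.Normal.conj_mem (inferInstance : K.Normal) u (hQK hu) g⁻¹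
          simpa using this
        · rw [Subgroup.mem_comap, Subgroup.mem_centralizer_singleton_iff]
          have h1 : u * n = n * u := Subgroup.mem_centralizer_iff.1 hnC u hu
          have h2 : f u * f n = f n * f u := by rw [← map_mul, h1, map_mul]
          have h3 : f x = (f g)⁻¹ * f n * f g := by rw [hfn]; group
          have h4 : f (g⁻¹ * u * g) = (f g)⁻¹ * f u * f g := by simp
          rw [h3, h4]
          calc (f g)⁻¹ * f u * f g * ((f g)⁻¹ * f n * f g)
              = (f g)⁻¹ * (f u * f n) * f g := by group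
            _ = (f g)⁻¹ * (f n * f u) * f g := by rw [h2]
            _ = (f g)⁻¹ * f n * f g * ((f g)⁻¹ * f u * f g) := by group
      rw [← hQcard, ← Subgroup.card_map_of_injective
        (f := (MulAut.conj g⁻¹).toMonoidHom) (MulAut.conj g⁻¹).injective]
      exact Subgroup.card_dvd_of_le hQ'D
  have hDK : D = K := Subgroup.eq_of_le_of_card_ge inf_le_left
    (Nat.le_of_dvd Nat.card_pos hdvd)
  rw [Subgroup.mem_centralizer_iff]
  rintro _ ⟨u, hu, rfl⟩
  have hu' : u ∈ D := hDK ▸ hu
  have := (Subgroup.mem_inf.1 hu').2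
  rw [Subgroup.mem_comap, Subgroup.mem_centralizer_singleton_iff] at this
  exact this

theorem piNum_orderOf_mk_iff {G : Type*} [Group G] [Finite G] {π : Set ℕ} (L : Subgroup G)
    [L.Normal] (hL : PiNum π (Nat.card L)) (x : G) :
    PiNum π (orderOf (QuotientGroup.mk' L x)) ↔ PiNum π (orderOf x) := by
  constructor
  · intro h
    apply (h.mul hL).of_dvd
    apply orderOf_dvd_of_pow_eq_one
    rw [pow_mul]
    have hxL : x ^ orderOf (QuotientGroup.mk' L x) ∈ L := by
      rw [← QuotientGroup.eq_one_iff]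
      have : QuotientGroup.mk' L (x ^ orderOf (QuotientGroup.mk' L x)) = 1 := by
        rw [map_pow, pow_orderOf_eq_one]
      exact this
    have := pow_card_eq_one' (G := L) (x := ⟨_, hxL⟩)
    exact congrArg Subtype.val this
  · intro h
    exact h.of_dvd (orderOf_map_dvd _ x)

/-- The core step: `L ≤ K ≤ X` normal in `G`, with `L` a `π`-group, `K / L` a `π'`-group and
`X / K` a `π`-group. Then the `π`-elements of `X` form a subgroup. -/
theorem core {G : Type*} [Group G] [Finite G] {π : Set ℕ} (hC : HC π G)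
    (L K X : Subgroup G) [L.Normal] [K.Normal] [X.Normal] (hLK : L ≤ K) (hKX : K ≤ X)
    (hL : PiNum π (Nat.card L)) (hKL : PiNum' π (L.relIndex K)) (hXK : PiNum π (K.relIndex X)) :
    ∃ T : Subgroup G, T ≤ X ∧ ∀ x ∈ X, x ∈ T ↔ PiNum π (orderOf x) := by
  classical
  set f := QuotientGroup.mk' L with hf
  have hfs : Function.Surjective f := QuotientGroup.mk'_surjective L
  have hker : f.ker = L := QuotientGroup.ker_mk' L
  haveI hKn : (K.map f).Normal := Subgroup.Normal.map inferInstance f hfs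
  haveI hXn : (X.map f).Normal := Subgroup.Normal.map inferInstance f hfs
  have hCidx : PiNum' π (Subgroup.centralizer ((K.map f : Subgroup (G ⧸ L)) : Set (G ⧸ L))).index := by
    intro r hr hd hrπ
    haveI : Fact r.Prime := ⟨hr⟩
    let R : Sylow r G := default
    have h1 : (R : Subgroup G).map f ≤
        Subgroup.centralizer ((K.map f : Subgroup (G ⧸ L)) : Set (G ⧸ L)) := by
      rintro _ ⟨x, hx, rfl⟩
      obtain ⟨k, hk⟩ := R.2 ⟨x, hx⟩
      have hk' : x ^ r ^ k = 1 := congrArg Subtype.val hk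
      exact mk_mem_centralizer hC L K hLK hL hKL hr hrπ x k hk'
    exact R.not_dvd_index ((hd.trans (Subgroup.index_dvd_of_le h1)).trans
      (Subgroup.index_map_dvd _ hfs))
  have hKXm : K.map f ≤ X.map f := Subgroup.map_mono hKX
  have hK'card : PiNum' π (Nat.card ((K.map f).subgroupOf (X.map f))) := by
    rw [Nat.card_congr (Subgroup.subgroupOfEquivOfLe hKXm).toEquiv, ← Subgroup.relIndex_ker, hker]
    exact hKL
  have hK'idx : PiNum π ((K.map f).subgroupOf (X.map f)).index := by
    have : ((K.map f).subgroupOf (X.map f)).index = K.relIndex X := by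
      show (K.map f).relIndex (X.map f) = _
      rw [Subgroup.relIndex_map_map, hker, sup_eq_left.2 hLK, sup_eq_left.2 (hLK.trans hKX)]
    rw [this]; exact hXK
  have hcen : PiNum' π (Subgroup.centralizer
      (((K.map f).subgroupOf (X.map f) : Subgroup (X.map f)) : Set (X.map f))).index := by
    have h1 : (Subgroup.centralizer ((K.map f : Subgroup (G ⧸ L)) : Set (G ⧸ L))).subgroupOf
        (X.map f) ≤ Subgroup.centralizer
      (((K.map f).subgroupOf (X.map f) : Subgroup (X.map f)) : Set (X.map f)) := by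
      intro y hy
      rw [Subgroup.mem_subgroupOf, Subgroup.mem_centralizer_iff] at hy
      rw [Subgroup.mem_centralizer_iff]
      intro h hh
      exact Subtype.ext (hy h (Subgroup.mem_subgroupOf.1 hh))
    apply hCidx.of_dvd
    exact (Subgroup.index_dvd_of_le h1).trans (Subgroup.relIndex_dvd_index_of_normal _ _)
  obtain ⟨TY, hTn, hTc, hTi⟩ := exists_hall_of_centralizer _ hK'card hK'idx hcen
  haveI := hTn
  refine ⟨X ⊓ (TY.map (X.map f).subtype).comap f, inf_le_left, fun x hx => ?_⟩
  have hfx : f x ∈ X.map f := Subgroup.mem_map_of_mem f hx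
  have h1 : x ∈ X ⊓ (TY.map (X.map f).subtype).comap f ↔ (⟨f x, hfx⟩ : X.map f) ∈ TY := by
    rw [Subgroup.mem_inf, Subgroup.mem_comap]
    constructor
    · rintro ⟨_, y, hy, hyx⟩
      have : y = ⟨f x, hfx⟩ := Subtype.ext hyx
      rwa [← this]
    · intro h
      exact ⟨hx, _, h, rfl⟩
  rw [h1, mem_iff_of_hall (X := ⊤) hTc (by rw [Subgroup.relIndex_top_right]; exact hTi)
    (Subgroup.mem_top _), Subgroup.orderOf_mk]
  exact piNum_orderOf_mk_iff L hL x

end Cfsg.Agent.Lib.Helper22.PiC
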